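import Cfsg.Agent.Ito.U4
import Cfsg.Agent.Fgs2.Neu3
import Cfsg.Agent.S0495
import Cfsg.Agent.S0678

/-! Groups of prime degree `p` with a unique character of degree `p`: the two cases. -/

set_option autoImplicit false
set_option linter.unusedSectionVars false

namespace CF.Ito

open CF.Small CF.Small.PSet Cfsg CF.PF Subgroup MulAction Finset CF.Perm
open scoped ComplexConjugate MatrixGroups

variable {p : ℕ} [hp : Fact p.Prime] {G : Type*} [Group G] [Fintype G]

namespace Uc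

variable {S : PSet p G} {Ω : Type*} [MulAction G Ω] [Fintype Ω] [DecidableEq Ω] {θ : G → ℂ}
  (C : Uc S Ω θ)
include C

theorem three_le : S.fi + 1 ≤ p ∧ 3 ≤ p := by
  have h1 := hp.out.two_le
  have := Nat.le_of_dvd (by omega) S.fi_dvd
  have := C.fi_ne
  have := S.fi_pos
  omega

theorem two : Two G Ω := by
  have := C.faith
  have := C.tr
  exact ⟨C.card.ge.trans' C.three_le.2, twoTrans_iff.1 (Fgs2.Neu.two_of_insoluble
    (by rw [Nat.card_eq_fintype_card, C.card]) C.not_solv)⟩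

theorem even (he : Even S.fi) : p = 5 ∧ S.fi = 2 ∧ S.N.index = 6 := by
  classical
  have := C.faith
  have := C.tr
  obtain ⟨Q, hQ⟩ := S.exists_sylow
  have h3 := threeTrans_iff.1 (threeTrans_of_even_normalizer C.card C.not_solv Q (by
    rw [hQ, card_N_eq' C.SK]; exact he.mul_left _))
  obtain ⟨a, ha⟩ := C.exists_fix
  have fx1 : ∀ y ∈ S.H, y ≠ 1 → fs Ω y = {a} := fun y hy y1 => eq_singleton_iff_unique_mem.2
    ⟨mem_fs.2 (ha y hy), fun b hb => C.fix_eq hy y1 (ha y hy) (mem_fs.1 hb)⟩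
  obtain ⟨y, hy, ho⟩ := S.exists_H_eq C.SK
  have y0 : y ∈ S.H := hy ▸ mem_zpowers y
  have y1 : y ≠ 1 := fun e => C.fi_ne (by rw [← ho, e, orderOf_one])
  have ho' : orderOf (toPermHom G Ω y) = S.fi := by
    rw [orderOf_injective _ (MulAction.toPerm_injective), ho]
  obtain ⟨t, t1, t2⟩ := sign_of_semiregular (toPermHom G Ω y) fun n x hx => by
    rw [← map_pow] at hx ⊢
    by_cases h : y ^ n = 1
    · exact .inr (by rw [h, map_one])
    · exact .inl (C.fix_eq (pow_mem y0 n) h (ha _ (pow_mem y0 n)) hx ▸ ha y y0)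
  rw [ho', show (toPermHom G Ω y).support = (fs Ω y)ᶜ from Finset.ext fun x => by simp [mem_fs],
    fx1 y y0 y1, card_compl, C.card, card_singleton] at t1
  rw [ho', sign_toPerm_eq_one C.perf, pow_mul, he.add_one.neg_one_pow, eq_comm,
    neg_one_pow_eq_one_iff_even (by decide)] at t2
  have := Fact.mk Nat.prime_two
  obtain ⟨s, hs⟩ := exists_prime_orderOf_dvd_card' (G := S.H) 2 (card_H_eq C.SK ▸ he.two_dvd)
  rw [← orderOf_coe] at hs
  have s1 : (s : G) ≠ 1 := fun e => by simp [e] at hs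
  have s2 : ∀ x, IsConj (s : G) x → x ^ 2 = 1 ∧ jj Ω x = S.fi * t := fun x hx => by
    obtain ⟨c, rfl⟩ := isConj_iff.1 hx
    have h1 : (c * s * c⁻¹) ^ 2 = 1 := by rw [conj_pow, ← hs, pow_orderOf_eq_one]; simp
    have h2 := fx_sq (Ω := Ω) (c * s * c⁻¹)
    rw [h1, fx_one, C.card, fx_conj, fx, fx1 _ s.2 s1, card_singleton] at h2
    exact ⟨h1, by omega⟩
  have h4 : ∑ g : G, jj Ω g = Nat.card G := by exact_mod_cast C.two.sum_jj
  rw [← sum_filter_add_sum_filter_not univ (IsConj (s : G)), sum_congr rfl fun x hx =>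
    (s2 x (mem_filter.1 hx).2).2, sum_const, smul_eq_mul, Char.card_filter_isConj,
    ← (centralizer {(s : G)}).index_mul_card] at h4
  have h5 := Nat.mul_le_mul_left (centralizer {(s : G)}).index (C.card_cent s.2 s1)
  have h6 : 0 < (centralizer {(s : G)}).index * S.fi :=
    mul_pos (Nat.pos_of_ne_zero index_ne_zero_of_finite) S.fi_pos
  have h7 := C.three_le
  rw [← h4, mul_left_comm _ 2, ← mul_assoc _ S.fi] at h5
  obtain rfl : t = 2 := by
    obtain ⟨u, rfl⟩ := t2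
    have := Nat.le_of_mul_le_mul_left ((Nat.le_add_right _ _).trans (h5.trans_eq (mul_comm _ _))) h6
    rcases u with _ | u <;> omega
  have h8 : ∀ g : G, ∀ b c : Ω, b ≠ c → g • b = c → g • c = b → ∀ x : Ω, g • g • x = x :=
    fun g b c k1 k2 k3 x => by
    by_cases h : IsConj (s : G) g
    · rw [← mul_smul, ← sq, (s2 g h).1, one_smul]
    have := sum_eq_zero_iff.1 (show ∑ g with ¬ IsConj (s : G) g, jj Ω g = 0 by omega) g
      (mem_filter.2 ⟨mem_univ _, h⟩)
    exact absurd (card_eq_zero.1 this ▸ (mem_sw (x := (b, c))).2 ⟨k1, k2, k3⟩) (notMem_empty _)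
  obtain ⟨x0, hx0⟩ : (D3 Ω).Nonempty := by
    have := tc3 (Ω := Ω) (1 : G)
    rw [fx_one, C.card] at this
    refine (card_pos.1 (?_ : 0 < tc (D3 Ω) id (1 : G))).mono (filter_subset _ _)
    zify at h7 ⊢
    rw [this]
    exact mul_pos (mul_pos (by omega) (by omega)) (by omega)
  have h9 := sum_tc_trans (G := G) D3_inv hx0 fun x hx => by
    rw [mem_D3] at hx hx0
    obtain ⟨g, k1, k2, k3⟩ := h3 _ _ _ _ _ _ hx0.1 hx0.2.1.symm hx0.2.2.symm hx.1 hx.2.1.symm
      hx.2.2.symm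
    exact ⟨g, Prod.ext (Prod.ext k1 k2) k3⟩
  rw [sum_eq_single (f := tc (D3 Ω) id) 1 (fun l _ l1 => card_eq_zero.2 (filter_eq_empty_iff.2 ?_)) (by simp)] at h9
  · have h10 := tc3 (Ω := Ω) (1 : G)
    obtain ⟨n, hn⟩ := S.exists_index_N
    rw [h9, fx_one, C.card, card_eq' C.SK, hn] at h10
    have h11 : (p : ℤ) = 2 * S.fi + 1 := by omega
    have h12 : (n * p + 1 : ℤ) = 2 * (p - 2) := mul_left_cancel₀ (a := (p : ℤ) * S.fi)
      (by have := S.fi_pos; have := hp.out.pos; positivity)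
      (by push_cast at h10; linear_combination h10 + (p * (p - 2)) * h11)
    have h13 : p = 5 := (Nat.prime_dvd_prime_iff_eq hp.out Nat.prime_five).1
      (Int.natCast_dvd_natCast.1 ⟨2 - n, by push_cast; linarith⟩)
    subst h13
    omega
  · rintro ⟨⟨b, c⟩, d⟩ hx e
    obtain ⟨k1, k2, k3⟩ := mem_D3.1 hx
    simp only [Prod.smul_mk, id, Prod.mk.injEq] at e k1 k2 k3
    refine l1 (FaithfulSMul.eq_of_smul_eq_smul (α := Ω) fun x => (one_smul G x).symm ▸ ?_)
    by_cases xb : x = b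
    · rw [xb, e.1.1]
    by_cases xc : x = c
    · rw [xc, e.1.2]
    obtain ⟨g, g1, g2, g3⟩ := h3 b c d c b x k1 (Ne.symm k2) (Ne.symm k3) (Ne.symm k1) (Ne.symm xc)
      (Ne.symm xb)
    have k4 := h8 (g * l) b c k1 (by rw [mul_smul, e.1.1, g1]) (by rw [mul_smul, e.1.2, g2]) d
    rw [mul_smul, mul_smul, e.2, g3] at k4
    exact MulAction.injective g (k4.trans (g3 ▸ h8 g b c k1 g1 g2 d).symm)

theorem theta_H (ho : Odd S.fi) : star θ = θ ∧ ∀ y ∈ S.H, y ≠ 1 → θ y = 1 := by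
  have h1 := C.uniq _ (star_mem_irr C.ir) (BlockB.charDegree_of_eq (by simp [C.theta_one]))
  obtain ⟨i, hi⟩ := C.theta_lin
  refine ⟨h1, fun y hy y1 => ?_⟩
  have h2 := congrFun ((isCh_lin i).mul_star_of_one (lin_apply_one i)) y
  have h3 := congrFun h1 y
  rw [Pi.star_apply, hi y hy y1] at h3
  rw [Pi.mul_apply, Pi.star_apply, h3, triv_of_mem (S.H_le hy), ← sq] at h2
  obtain ⟨m, hm⟩ := ho
  have h4 := lin_map_pow i (S.H_le hy) S.fi
  rwa [pow_fi C.SK hy, lin_apply_one, hm, pow_succ, pow_mul, h2, one_pow, one_mul, eq_comm,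
    ← hi y hy y1] at h4

theorem two_mul_le (ho : Odd S.fi) : 3 ≤ S.fi ∧ 2 * S.fi + 1 ≤ p := by
  obtain ⟨t, ht⟩ := S.fi_dvd
  have h1 := C.three_le
  have h2 := C.fi_ne
  have h3 := hp.out.odd_of_ne_two (by omega)
  rw [Nat.odd_iff] at ho h3
  rcases t with _ | _ | t
  · omega
  · omega
  · exact ⟨by omega, by nlinarith [Nat.sub_add_cancel hp.out.one_le]⟩

theorem odd (ho : Odd S.fi) (h7 : p ≠ 7) : p = 11 ∧ S.fi = 5 ∧ S.N.index = 12 := by
  have := C.simple
  have := C.tr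
  obtain ⟨h1, h2⟩ := C.theta_H ho
  obtain ⟨h3, h4⟩ := C.two_mul_le ho
  obtain ⟨χ, hχ, i, i1, c1, c2, c3, c4⟩ := exists_chi C.comm (card_H_eq C.SK ▸ ho) C.NE C.ti C.perf
    (fun e => C.fi_ne (by rw [← card_H_eq C.SK, e, card_bot])) C.ir
    (fun e => hp.out.ne_one (by rw [← C.deg, e, deg_triv])) h1 h2
  rw [C.theta_one] at c2
  have hd : charDegree χ = p + 1 := BlockB.charDegree_of_eq (by rw [c2]; simp)
  obtain ⟨a, ha⟩ := C.exists_fix
  have h5 := (stabilizer G a).index_mul_card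
  rw [index_stabilizer_of_transitive, Nat.card_eq_fintype_card, C.card] at h5
  have h6 : ¬ p ∣ Nat.card (stabilizer G a) := fun h => S.nsq (by
    rw [← h5, sq]; exact Nat.mul_dvd_mul_left p h)
  have h8 : ∑ x ∈ els (stabilizer G a), χ x = 0 := by
    by_contra h
    rcases C.two.eq_of_ip_triv a hχ (by
      rw [ip_triv_right]; exact mul_ne_zero (inv_ne_zero (card_ne_zero _)) h) with e | e
    · rw [e, chi, fx_one, C.card, sub_eq_iff_eq_add] at c2
      norm_cast at c2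
      omega
    · rw [e, deg_triv] at hd
      omega
  have h9 : ∀ j : Lin S.H, j ≠ 1 → ∑ x ∈ els S.H, lin j x = 0 := fun j hj => by
    have := ip_lin j 1
    rwa [if_neg hj, lin_one, ip_triv_right, mul_eq_zero,
      or_iff_right (inv_ne_zero (card_ne_zero _))] at this
  have h10 : ∑ x ∈ els S.N, χ x = 0 := by
    rw [S.sum_N, sum_congr rfl (g := fun y => p * (lin i y + lin i⁻¹ y)), ← mul_sum, sum_add_distrib,
      h9 i i1, h9 _ (inv_ne_one.2 i1), add_zero, mul_zero]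
    intro y hy
    rw [mem_els] at hy
    by_cases y1 : y = 1
    · rw [y1, ← add_sum_erase _ _ (mem_univ 0), sum_congr rfl (g := fun _ => 1) fun j hj => by
        have hj := ne_of_mem_erase hj
        rw [one_mul, c4 _ fun x k => S.not_dvd_orderOf_of_mem_H k (by
          rw [← MulAut.conj_apply, MulEquiv.orderOf_eq, S.orderOf_zp hj]), C.theta_zp hj, zero_add]]
      simp [c2, Nat.cast_sub hp.out.one_le]
      ring
    · rw [sum_congr rfl (g := fun _ => χ y) fun j _ => ?_, c3 y hy y1]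
      · simp [mul_add]
      have k1 : S.act y⁻¹ - 1 ≠ 0 := sub_ne_zero.2 fun e => notMem_C_of_mem_H C.SK (inv_mem hy)
        (inv_ne_one.2 y1) ((S.act_eq_one_iff (S.H_le (inv_mem hy))).1 e)
      have k2 := S.conj_zp (S.H_le (inv_mem hy)) (j / (S.act y⁻¹ - 1))
      have k3 : S.act y⁻¹ * (j / (S.act y⁻¹ - 1)) + -(j / (S.act y⁻¹ - 1)) = j := by
        field_simp; ring
      rw [← CFn.conj (cfn_of_irr hχ) (mem_top (S.zp (j / (S.act y⁻¹ - 1)))) y, ← S.zp_neg]
      conv_lhs => rw [← k3, S.zp_add, ← k2]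
      group
  obtain ⟨M, hM⟩ := BlockB.exists_isPModular hp.out
  have := BlockB.charP_k hM
  obtain ⟨ψ, hψ⟩ := exists_pgl C.SK ho (by omega) h4 (fun e => not_lt.1 fun k => by
    have := hp.out
    rw [show p = 9 by rw [Nat.odd_iff] at ho; omega] at this
    norm_num at this) h6 hχ hd c1 h10 h8 hM
  obtain ⟨k1, k2⟩ := index_of_pgl C.SK ho (by omega) C.not_normal hψ
  obtain ⟨y, hy, hy'⟩ := S.exists_H_eq C.SK
  have y0 : y ∈ S.H := hy ▸ mem_zpowers y
  rw [card_eq' C.SK, mul_assoc, Nat.mul_right_inj hp.out.ne_zero, k2] at h5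
  have k3 := C.card_cent (pow_mem y0 2) fun e => by
    have := Nat.le_of_dvd two_pos (orderOf_dvd_of_pow_eq_one e); omega
  have k4 := card_cases hψ h6 (ha y y0) (by nlinarith)
  rw [h5, show p + 1 = 2 * S.fi + 2 by omega] at k4
  have : S.fi ≤ 5 := by rcases k4 with h | h | h <;> nlinarith
  have : S.fi = 5 := by interval_cases h : S.fi <;> omega
  omega

theorem not_nine (h : S.fi = 3) : ¬ 9 ∣ Nat.card G := fun h9 => by
  have := Fact.mk Nat.prime_three
  obtain ⟨y, hy, ho⟩ := S.exists_H_eq C.SK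
  obtain ⟨K, k1, k2⟩ := Sylow.exists_subgroup_card_pow_succ (p := 3) (n := 1) h9 (H := S.H)
    ((card_H_eq C.SK).trans h)
  have y0 : y ∈ S.H := hy ▸ mem_zpowers y
  have h1 := (card_le_of_le (K := centralizer {y}) fun g hg => mem_centralizer_singleton_iff.2
    (congrArg Subtype.val ((IsPGroup.isMulCommutative_of_card_eq_prime_sq k1).is_comm.comm
      ⟨g, hg⟩ ⟨y, k2 y0⟩))).trans (C.card_cent y0 fun e => C.fi_ne (by rw [← ho, e, orderOf_one]))
  omega

end Uc

theorem main_u {α : Type*} [Fintype α] [DecidableEq α] (hα : Fintype.card α = p)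
    (G : Subgroup (Equiv.Perm α)) [IsPretransitive G α]
    (huniq : ∃! χ : IrrCharacter G, charDegree (χ : G → ℂ) = p) (P : Sylow p G) (E : Subgroup G)
    (hPE : (P : Subgroup G) ⊔ E = normalizer ((P : Subgroup G) : Set G))
    (hPE' : (P : Subgroup G) ⊓ E = ⊥) (hNE : Nat.card (normalizer (E : Set G)) = 2 * Nat.card E)
    (hTI : ∀ g : G, g ∉ normalizer (E : Set G) → E ⊓ E.map (MulAut.conj g).toMonoidHom = ⊥) :
    (p = 5 ∨ p = 7 ∨ p = 11) ∧ Nonempty (G ≃* PSL(2, ZMod p)) := by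
  have := Fintype.ofFinite G
  obtain ⟨z, hz, e⟩ := exists_generator_sylow hα P
  rw [← e] at hPE hPE'
  have h1 : E ≤ normalizer (zpowers z : Set G) := le_sup_right.trans hPE.le
  obtain ⟨S0, rfl, hK⟩ := exists_pset_self hz (sub_centralizer_eq hz hα)
  let S : PSet p G := ⟨S0.z, E, hz, S0.nsq, h1, fun h => by
    obtain ⟨y, hy⟩ := exists_prime_orderOf_dvd_card' p h
    rw [← orderOf_coe] at hy
    exact hp.out.ne_one (by rw [← hy, Subgroup.mem_bot.1 (hPE'.le ⟨(C_eq_P hK).le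
      (mem_C_of_dvd (h1 y.2) hy.symm.dvd), y.2⟩), orderOf_one]), fun n hn => by
    obtain ⟨u, hu, y, hy, rfl⟩ := exists_mul_of_mem_sup h1 (hPE.ge hn)
    exact ⟨u, hu, y, hy, rfl⟩⟩
  obtain ⟨θ, t1, t2⟩ := huniq
  have C : Uc S α θ := ⟨eq_bot_iff.2 fun y hy => hPE'.le ⟨(sub_centralizer_eq hz hα).le
      (mem_centralizer_singleton_iff.2 (S.mem_C_iff.1 (S.K_le_C hy))), S.K_le_H hy⟩, hα,
    inferInstance, inferInstance, Nat.eq_of_mul_eq_mul_right Nat.card_pos
      ((card_eq_relIndex_mul le_normalizer).symm.trans hNE),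
    nti_of_isTISubset fun g hg x hx h => by
      simpa using (hTI g hg).le (show g * x * g⁻¹ ∈ _ from ⟨h, x, hx, rfl⟩),
    mem_irr_top.2 θ.2, t1, fun χ hχ h => congrArg Subtype.val (t2 ⟨χ, mem_irr_top.1 hχ⟩ h)⟩
  rcases Nat.even_or_odd S.fi with h | h
  · obtain ⟨k1, k2, k3⟩ := C.even h
    exact ⟨.inl k1, S.psl_of_index C.perf C.SK (by omega) (by omega) (ZMod.card p)⟩
  by_cases h7 : p = 7
  · have := C.simple
    have h2 := C.two_mul_le h
    have h3 := C.not_nine (by omega)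
    subst h7
    refine ⟨.inr (.inl rfl), Cfsg.Agent.S0495.result (Cfsg.Agent.S0678.result hα G C.not_solv
      fun hA => h3 (Dvd.dvd.trans ?_ (card_dvd_of_le hA))).1 (ZMod.card _)⟩
    have : Nontrivial α := Fintype.one_lt_card_iff_nontrivial.1 (by omega)
    rw [nat_card_alternatingGroup, Nat.card_eq_fintype_card, hα]
    decide
  · obtain ⟨k1, k2, k3⟩ := C.odd h h7
    exact ⟨.inr (.inr k1), S.psl_of_index C.perf C.SK (by omega) (by omega) (ZMod.card p)⟩

end CF.Ito
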